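import Mathlib
import Cfsg.Agent.Lib.Core
import Cfsg.Agent.Lib.Components.Basic

/-!
# Groups with cyclic Sylow subgroup and trivial p'-core
-/

set_option autoImplicit false

namespace CfsgLib.CyclicSylowCoreFree

open Cfsg CfsgLib.Core
open scoped commutatorElement

universe u

variable {K : Type u} [Group K] [Finite K] {p : ℕ} [hp : Fact p.Prime]

/-- A p'-element centralizing a nontrivial element of a normalized cyclic p-group centralizes it. -/
theorem centralizes_of_fixed {P : Subgroup K} (hP : IsPGroup p P) [IsCyclic P] {n : K}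
    (hn : n ∈ Subgroup.normalizer (P : Set K)) (hcop : (orderOf n).Coprime p) {z : K} (hz : z ∈ P) (hz1 : z ≠ 1)
    (hfix : n * z = z * n) : n ∈ Subgroup.centralizer (P : Set K) := by
  obtain ⟨y, hy⟩ := IsCyclic.exists_generator (α := P)
  have hgen : ∀ w ∈ P, ∃ k : ℕ, w = (y : K) ^ k := fun w hw => by
    obtain ⟨k, hk⟩ := (mem_powers_iff_mem_zpowers.mpr (hy ⟨w, hw⟩) : (⟨w, hw⟩ : P) ∈ Submonoid.powers y)
    exact ⟨k, (congrArg Subtype.val hk).symm⟩
  obtain ⟨r, hr⟩ := hgen _ ((Subgroup.mem_normalizer_iff.mp hn y).mp y.2)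
  obtain ⟨j, rfl⟩ := hgen z hz
  obtain ⟨m, hm⟩ := hP y
  have hpow : ∀ k : ℕ, n ^ k * (y : K) * (n ^ k)⁻¹ = (y : K) ^ (r ^ k) := by
    intro k
    induction k with
    | zero => simp
    | succ k ih =>
      rw [pow_succ' n k, show n * n ^ k * (y : K) * (n * n ^ k)⁻¹ = n * (n ^ k * (y : K) * (n ^ k)⁻¹) * n⁻¹ by group,
        ih, ← conj_pow, hr, ← pow_mul, pow_succ' r k]
  have hyj : (y : K) ^ (r * j) = (y : K) ^ j := by
    rw [pow_mul, ← hr, conj_pow]
    rw [hfix]; group
  have hmod : (r * j : ℤ) ≡ j [ZMOD orderOf (y : K)] := by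
    exact_mod_cast (pow_eq_pow_iff_modEq.mp hyj)
  obtain ⟨s, _, hs⟩ := (Nat.dvd_prime_pow hp.out).mp (orderOf_dvd_of_pow_eq_one (show (y : K) ^ p ^ m = 1 by
    exact_mod_cast congrArg Subtype.val hm))
  have hdvd : (p : ℤ) ^ s ∣ (j : ℤ) * ((r : ℤ) - 1) := by
    rw [hs] at hmod
    have := Int.modEq_iff_dvd.mp hmod.symm
    push_cast at this
    rwa [mul_sub, mul_one, mul_comm]
  have hpr : (p : ℤ) ∣ (r : ℤ) - 1 := by
    by_contra h
    have hco : IsCoprime ((p : ℤ) ^ s) ((r : ℤ) - 1) :=
      ((Nat.prime_iff_prime_int.mp hp.out).coprime_iff_not_dvd.mpr h).pow_left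
    have hd : (p ^ s : ℕ) ∣ j := by exact_mod_cast hco.dvd_of_dvd_mul_right hdvd
    obtain ⟨c, rfl⟩ := hd
    exact hz1 (by rw [pow_mul, ← hs, pow_orderOf_eq_one, one_pow])
  have h1 := dvd_sub_pow_of_dvd_sub (R := ℤ) (a := (r : ℤ)) (b := 1) hpr s
  rw [one_pow] at h1
  have hfixy : n ^ p ^ s * (y : K) * (n ^ p ^ s)⁻¹ = y := by
    rw [hpow]
    conv_rhs => rw [← pow_one (y : K)]
    rw [pow_eq_pow_iff_modEq, hs, ← Int.natCast_modEq_iff]
    push_cast
    rw [Int.modEq_iff_dvd]
    have h2 : (p : ℤ) ^ s ∣ (p : ℤ) ^ (s + 1) := pow_dvd_pow _ (Nat.le_succ s)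
    exact dvd_sub_comm.mp (h2.trans (by exact_mod_cast h1))
  have hin : n ^ p ^ s ∈ Subgroup.centralizer (P : Set K) := by
    rw [Subgroup.mem_centralizer_iff]
    intro w hw
    obtain ⟨k, rfl⟩ := hgen w hw
    have hc : Commute (n ^ p ^ s) (y : K) := mul_inv_eq_iff_eq_mul.mp hfixy
    exact (hc.pow_right k).symm
  obtain ⟨l, hl⟩ := exists_pow_eq_self_of_coprime (Nat.Coprime.pow_left s hcop.symm) (x := n)
  exact hl ▸ Subgroup.pow_mem _ hin l

/-- Burnside's dichotomy: either the centre of the normalizer controls, or a p'-element acts nontrivially. -/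
theorem exists_prime_element {P : Sylow p K} (hab : ∀ a ∈ (P : Subgroup K), ∀ b ∈ (P : Subgroup K), a * b = b * a)
    (h : ¬ Subgroup.normalizer ((P : Subgroup K) : Set K) ≤ Subgroup.centralizer ((P : Subgroup K) : Set K)) :
    ∃ n ∈ Subgroup.normalizer ((P : Subgroup K) : Set K), (orderOf n).Coprime p ∧
      n ∉ Subgroup.centralizer ((P : Subgroup K) : Set K) := by
  obtain ⟨g, hg, hgc⟩ := SetLike.not_le_iff_exists.mp h
  obtain ⟨a, m, hm, ho⟩ := Nat.exists_eq_pow_mul_and_not_dvd (orderOf_pos g).ne' p hp.out.ne_one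
  have hm0 : m ≠ 0 := by rintro rfl; exact hm (dvd_zero p)
  refine ⟨g ^ p ^ a, Subgroup.pow_mem _ hg _, ?_, fun hn => hgc ?_⟩
  · rw [orderOf_pow_of_dvd (pow_ne_zero _ hp.out.ne_zero) (by rw [ho]; exact dvd_mul_right _ m), ho,
      Nat.mul_div_cancel_left _ (pow_pos hp.out.pos a)]
    exact (hp.out.coprime_iff_not_dvd.mpr hm).symm
  · have hz : IsPGroup p (Subgroup.zpowers (g ^ m)) := by
      refine IsPGroup.of_card (n := a) ?_
      rw [Nat.card_zpowers, orderOf_pow_of_dvd hm0 (by rw [ho]; exact dvd_mul_left m _), ho,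
        Nat.mul_div_cancel _ (Nat.pos_of_ne_zero hm0)]
    have hgm : g ^ m ∈ (P : Subgroup K) := by
      have := hz.inf_normalizer_sylow P
      have h1 : g ^ m ∈ Subgroup.zpowers (g ^ m) ⊓ Subgroup.normalizer ((P : Subgroup K) : Set K) :=
        ⟨Subgroup.mem_zpowers _, Subgroup.pow_mem _ hg m⟩
      exact (this.le h1).2
    have hgmc : g ^ m ∈ Subgroup.centralizer ((P : Subgroup K) : Set K) := by
      rw [Subgroup.mem_centralizer_iff]
      exact fun w hw => hab w hw _ hgm
    have hco : Nat.Coprime (p ^ a) m := (hp.out.coprime_iff_not_dvd.mpr hm).pow_left a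
    have hb := Nat.gcd_eq_gcd_ab (p ^ a) m
    rw [hco] at hb
    have hg' : g = (g ^ p ^ a) ^ (Nat.gcdA (p ^ a) m) * (g ^ m) ^ (Nat.gcdB (p ^ a) m) := by
      rw [← zpow_natCast g (p ^ a), ← zpow_natCast g m, ← zpow_mul, ← zpow_mul, ← zpow_add, ← hb,
        Nat.cast_one, zpow_one]
    rw [hg']
    exact Subgroup.mul_mem _ (Subgroup.zpow_mem _ hn _) (Subgroup.zpow_mem _ hgmc _)

theorem centralizes_iff_sub {H : Subgroup K} {P : Subgroup K} (hPH : P ≤ H) (n : H) :
    n ∈ Subgroup.centralizer ((P.subgroupOf H : Subgroup H) : Set H) ↔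
      (n : K) ∈ Subgroup.centralizer (P : Set K) := by
  simp only [Subgroup.mem_centralizer_iff, SetLike.mem_coe, Subgroup.mem_subgroupOf]
  constructor
  · intro h w hw
    exact congrArg Subtype.val (h ⟨w, hPH hw⟩ hw)
  · intro h w hw
    exact Subtype.ext (h w hw)

theorem normalizer_sub {H : Subgroup K} {P : Subgroup K} (hPH : P ≤ H) {n : H}
    (hn : n ∈ Subgroup.normalizer ((P.subgroupOf H : Subgroup H) : Set H)) :
    (n : K) ∈ Subgroup.normalizer (P : Set K) := by
  apply mem_normalizer_fintype_aux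
  intro w hw
  exact (Subgroup.mem_normalizer_iff.mp hn ⟨w, hPH hw⟩).mp hw
where
  mem_normalizer_fintype_aux {P : Subgroup K} {n : K} (h : ∀ w ∈ P, n * w * n⁻¹ ∈ P) :
      n ∈ Subgroup.normalizer (P : Set K) := by
    have hm : P.map (MulAut.conj n).toMonoidHom = P := by
      refine Subgroup.eq_of_le_of_card_ge ?_ ?_
      · rintro _ ⟨w, hw, rfl⟩
        exact h w hw
      · exact (Subgroup.card_map_of_injective (MulAut.conj n).injective).ge
    rw [Subgroup.mem_normalizer_iff]
    intro w
    refine ⟨h w, fun hw => ?_⟩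
    rw [← hm] at hw
    obtain ⟨v, hv, hv'⟩ := hw
    have : v = w := (MulAut.conj n).injective (by simpa using hv')
    exact this ▸ hv

/-- Case of a nontrivial p-core. -/
theorem case_core (hO : pPrimeCore p K = ⊥) (P : Sylow p K) [IsCyclic (P : Subgroup K)]
    (hR : pCore p K ≠ ⊥) :
    (P : Subgroup K).Normal ∧ Subgroup.centralizer ((P : Subgroup K) : Set K) = (P : Subgroup K) ∧
      (∀ (_ : (P : Subgroup K).Normal), IsCyclic (K ⧸ (P : Subgroup K))) ∧ (P : Subgroup K).index ∣ p - 1 := by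
  classical
  have hab : ∀ a ∈ (P : Subgroup K), ∀ b ∈ (P : Subgroup K), a * b = b * a := fun a ha b hb =>
    congrArg Subtype.val (IsMulCommutative.is_comm.comm (⟨a, ha⟩ : (P : Subgroup K)) ⟨b, hb⟩)
  set R := pCore p K with hRdef
  haveI : R.Characteristic := pCore_characteristic p
  set C := Subgroup.centralizer (R : Set K) with hC
  have hPC : (P : Subgroup K) ≤ C := by
    intro a ha
    rw [hC, Subgroup.mem_centralizer_iff]
    exact fun w hw => hab w (pCore_le_sylow P hw) a ha
  let P' : Sylow p C := P.subtype hPC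
  have hP' : (P' : Subgroup C) = (P : Subgroup K).subgroupOf C := rfl
  have hab' : ∀ a ∈ (P' : Subgroup C), ∀ b ∈ (P' : Subgroup C), a * b = b * a := fun a ha b hb =>
    Subtype.ext (hab a ha b hb)
  obtain ⟨z, hz, hz1⟩ := exists_ne_one_of_ne_bot hR
  have hNC : Subgroup.normalizer ((P' : Subgroup C) : Set C) ≤ Subgroup.centralizer ((P' : Subgroup C) : Set C) := by
    by_contra hnot
    obtain ⟨n, hn, hcop, hnc⟩ := exists_prime_element hab' hnot
    apply hnc
    rw [hP'] at hn ⊢
    rw [centralizes_iff_sub hPC]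
    refine centralizes_of_fixed P.isPGroup' (normalizer_sub hPC hn) (by rwa [Subgroup.orderOf_coe])
      (pCore_le_sylow P hz) hz1 ?_
    exact (Subgroup.mem_centralizer_iff.mp n.2 z hz).symm
  have hT : (MonoidHom.transferSylow P' hNC).ker ≤ pPrimeCore p C := by
    refine le_pPrimeCore inferInstance ?_
    exact (hp.out.coprime_iff_not_dvd.mpr (MonoidHom.not_dvd_card_ker_transferSylow P' hNC)).symm
  have hCbot : pPrimeCore p C = ⊥ := by
    have h1 := (pPrimeCore_subgroup_map_le p C).trans hO.le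
    rwa [le_bot_iff, Subgroup.map_eq_bot_iff_of_injective _ C.subtype_injective] at h1
  have hcomp := MonoidHom.ker_transferSylow_isComplement' P' hNC
  rw [le_bot_iff.mp (hT.trans hCbot.le), Subgroup.isComplement'_bot_left, hP', Subgroup.subgroupOf_eq_top] at hcomp
  have hCP : C = (P : Subgroup K) := le_antisymm hcomp hPC
  have hN : (P : Subgroup K).Normal := by
    rw [← hCP, hC]; infer_instance
  have hcent : Subgroup.centralizer ((P : Subgroup K) : Set K) = (P : Subgroup K) := by
    refine le_antisymm ((Subgroup.centralizer_le (pCore_le_sylow P)).trans (le_of_eq hCP)) ?_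
    intro a ha
    rw [Subgroup.mem_centralizer_iff]
    exact fun w hw => hab w hw a ha
  haveI := hN
  -- the action on `P`
  let φ : K →* MulAut (P : Subgroup K) := MulAut.conjNormal
  have hker : φ.ker = (P : Subgroup K) := by
    refine Eq.trans ?_ hcent
    ext g
    rw [MonoidHom.mem_ker, Subgroup.mem_centralizer_iff, MulEquiv.ext_iff]
    simp only [φ, Subtype.ext_iff, MulAut.conjNormal_apply, MulAut.one_apply, Subtype.forall, SetLike.mem_coe]
    refine forall₂_congr fun w hw => ?_
    rw [mul_inv_eq_iff_eq_mul]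
    exact eq_comm
  let ψ : K ⧸ (P : Subgroup K) →* MulAut (P : Subgroup K) := QuotientGroup.lift _ φ hker.ge
  have hψ : Function.Injective ψ := by
    rw [← MonoidHom.ker_eq_bot_iff, QuotientGroup.ker_lift, hker, QuotientGroup.map_mk'_self]
  let aut : MulAut (P : Subgroup K) ≃* (ZMod (Nat.card (P : Subgroup K)))ˣ := IsCyclic.mulAutMulEquiv _
  obtain ⟨s, hs⟩ := IsPGroup.iff_card.mp P.isPGroup'
  have hdvd := Subgroup.card_dvd_of_injective (aut.toMonoidHom.comp ψ) (aut.injective.comp hψ)
  rw [← Subgroup.index_eq_card, Nat.card_eq_fintype_card (α := (ZMod _)ˣ), ZMod.card_units_eq_totient, hs] at hdvd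
  have hs0 : 0 < s := by
    rcases Nat.eq_zero_or_pos s with rfl | h
    · exfalso
      apply hR
      rw [pow_zero, Subgroup.card_eq_one] at hs
      exact le_bot_iff.mp ((pCore_le_sylow P).trans hs.le)
    · exact h
  rw [Nat.totient_prime_pow hp.out hs0] at hdvd
  have hidx : (P : Subgroup K).index ∣ p - 1 :=
    (((hp.out.coprime_iff_not_dvd.mpr P.not_dvd_index).symm).pow_right _).dvd_of_dvd_mul_left hdvd
  refine ⟨hN, hcent, fun _ => ?_, hidx⟩
  by_cases hp2 : p = 2
  · haveI : Subsingleton (K ⧸ (P : Subgroup K)) := by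
      refine (Nat.card_eq_one_iff_unique.mp ?_).1
      rw [← Subgroup.index_eq_card]
      exact Nat.dvd_one.mp (by simpa [hp2] using hidx)
    exact isCyclic_of_subsingleton
  · haveI : IsCyclic (ZMod (Nat.card (P : Subgroup K)))ˣ := by
      rw [hs]; exact ZMod.isCyclic_units_of_prime_pow p hp.out hp2 s
    exact isCyclic_of_injective (aut.toMonoidHom.comp ψ) (aut.injective.comp hψ)
where
  exists_ne_one_of_ne_bot {H : Subgroup K} (h : H ≠ ⊥) : ∃ z ∈ H, z ≠ 1 := by
    by_contra hh
    push Not at hh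
    exact h ((Subgroup.eq_bot_iff_forall _).mpr hh)

/-- Two commuting elements of order `p` generate the same subgroup. -/
theorem same_of_commute (P : Sylow p K) [IsCyclic (P : Subgroup K)] {A B : Subgroup K} (hA : p ∣ Nat.card A)
    (hB : p ∣ Nat.card B) (hcomm : ⁅A, B⁆ = ⊥) : A ⊓ B ≠ ⊥ := by
  obtain ⟨a, ha⟩ := exists_prime_orderOf_dvd_card' p hA
  obtain ⟨b, hb⟩ := exists_prime_orderOf_dvd_card' p hB
  rw [← Subgroup.orderOf_coe] at ha hb
  have hab : Commute (a : K) (b : K) := by
    have := Subgroup.commutator_mem_commutator a.2 b.2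
    rw [hcomm, Subgroup.mem_bot, commutatorElement_eq_one_iff_commute] at this
    exact this
  have hle : Subgroup.closure {(a : K), (b : K)} ≤ Subgroup.centralizer {(a : K)} := by
    rw [Subgroup.closure_le]
    rintro w (rfl | rfl)
    · exact Subgroup.mem_centralizer_singleton_iff.mpr rfl
    · exact Subgroup.mem_centralizer_singleton_iff.mpr hab.symm
  set D := Subgroup.closure {(a : K), (b : K)} with hD
  have hDp : IsPGroup p D := by
    have h1 : IsPGroup p (Subgroup.zpowers (a : K)) := IsPGroup.of_card (n := 1) (by rw [Nat.card_zpowers, ha, pow_one])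
    have h2 : IsPGroup p (Subgroup.zpowers (b : K)) := IsPGroup.of_card (n := 1) (by rw [Nat.card_zpowers, hb, pow_one])
    have h3 : Subgroup.zpowers (b : K) ≤ Subgroup.normalizer ((Subgroup.zpowers (a : K)) : Set K) := by
      refine le_trans ?_ (Subgroup.centralizer_le_normalizer _)
      rw [Subgroup.zpowers_le, Subgroup.mem_centralizer_iff]
      rintro w ⟨k, rfl⟩
      exact hab.zpow_left k
    have := h1.to_sup_of_normal_left' h2 h3
    refine this.to_le ?_
    rw [hD, Subgroup.closure_le]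
    rintro w (rfl | rfl)
    · exact Subgroup.mem_sup_left (Subgroup.mem_zpowers _)
    · exact Subgroup.mem_sup_right (Subgroup.mem_zpowers _)
  obtain ⟨Q, hQ⟩ := hDp.exists_le_sylow
  haveI : IsCyclic (Q : Subgroup K) := (Sylow.equiv P Q).isCyclic.mp inferInstance
  have haD : (a : K) ∈ (Q : Subgroup K) := hQ (Subgroup.subset_closure (by simp))
  have hbD : (b : K) ∈ (Q : Subgroup K) := hQ (Subgroup.subset_closure (by simp))
  have hzc : ∀ u : (Q : Subgroup K), orderOf u = p → ∀ v : (Q : Subgroup K), v ^ p = 1 → v ∈ Subgroup.zpowers u := by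
    classical
    intro u hu v hv
    haveI := Fintype.ofFinite (Q : Subgroup K)
    have hsub : (Finset.univ.filter (fun w => w ∈ Subgroup.zpowers u)) =
        Finset.univ.filter (fun w : (Q : Subgroup K) => w ^ p = 1) := by
      refine Finset.eq_of_subset_of_card_le ?_ ?_
      · intro w hw
        simp only [Finset.mem_filter, Finset.mem_univ, true_and] at hw ⊢
        obtain ⟨k, rfl⟩ := hw
        rw [← zpow_natCast, zpow_comm, zpow_natCast, orderOf_dvd_iff_pow_eq_one.mp (dvd_of_eq hu), one_zpow]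
      · refine (IsCyclic.card_pow_eq_one_le hp.out.pos).trans (le_of_eq ?_)
        rw [← Fintype.card_subtype, ← Nat.card_eq_fintype_card]
        exact (hu.symm.trans (Nat.card_zpowers u).symm)
    have : v ∈ Finset.univ.filter (fun w : (Q : Subgroup K) => w ^ p = 1) := by simp [hv]
    rw [← hsub] at this
    exact (Finset.mem_filter.mp this).2
  have hmem : (⟨a, haD⟩ : (Q : Subgroup K)) ∈ Subgroup.zpowers (⟨b, hbD⟩ : (Q : Subgroup K)) := hzc _ (by rw [← Subgroup.orderOf_coe]; exact hb) _ (Subtype.ext (by simpa using ha ▸ pow_orderOf_eq_one (a : K)))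
  obtain ⟨k, hk⟩ := hmem
  intro hbot
  have : (a : K) ∈ A ⊓ B := ⟨a.2, by
    rw [← show (b : K) ^ k = a from congrArg Subtype.val hk]
    exact B.zpow_mem b.2 k⟩
  rw [hbot, Subgroup.mem_bot] at this
  rw [this, orderOf_one] at ha
  exact hp.out.one_lt.ne ha


/-- Case of a trivial p-core. -/
theorem case_simple (hO : pPrimeCore p K = ⊥) (hdvd : p ∣ Nat.card K) (P : Sylow p K) [IsCyclic (P : Subgroup K)]
    (hR : pCore p K = ⊥) :
    IsSimpleGroup ↥(generalizedFittingSubgroup K) ∧ ¬ IsMulCommutative ↥(generalizedFittingSubgroup K) ∧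
      ¬ p ∣ (generalizedFittingSubgroup K).index := by
  classical
  have hF : fittingSubgroup K = ⊥ := by
    rw [fittingSubgroup_eq_iSup_pCore, iSup_eq_bot]
    rintro ⟨q, hq⟩
    by_cases hqp : q = p
    · subst hqp; exact hR
    · refine le_bot_iff.mp (le_trans ?_ hO.le)
      haveI := Fact.mk hq
      haveI : (pCore q K).Characteristic := pCore_characteristic q
      refine le_pPrimeCore inferInstance ?_
      obtain ⟨k, hk⟩ := IsPGroup.iff_card.mp (isPGroup_pCore (G := K) q)
      rw [hk]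
      exact ((Nat.coprime_primes hq hp.out).mpr hqp).pow_left k
  have hsub : ∀ H : Subgroup K, H.IsSubnormal → H ≠ ⊥ → p ∣ Nat.card H := by
    intro H hH hne
    by_contra hnd
    exact hne (le_bot_iff.mp ((coprime_subnormal_le_pPrimeCore hH
      (hp.out.coprime_iff_not_dvd.mpr hnd).symm).trans hO.le))
  have hnoab : ∀ H : Subgroup K, H.IsSubnormal → (∀ a ∈ H, ∀ b ∈ H, a * b = b * a) → H = ⊥ := by
    intro H hH hab
    refine le_bot_iff.mp (le_trans ?_ hF.le)
    exact CfsgLib.Components.nilpotent_subnormal_le_fitting hH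
      (CfsgLib.Components.isNilpotent_of_comm fun a b => Subtype.ext (hab _ a.2 _ b.2))
  haveI : Nontrivial K := by
    rw [← Finite.one_lt_card_iff_nontrivial]
    exact lt_of_lt_of_le hp.out.one_lt (Nat.le_of_dvd Nat.card_pos hdvd)
  obtain ⟨N, ⟨hNn, hNne⟩, hNmin⟩ := WellFounded.has_min (α := Subgroup K) wellFounded_lt
    {H | H.Normal ∧ H ≠ ⊥} ⟨⊤, inferInstance, top_ne_bot⟩
  haveI := hNn
  have hmin : ∀ H : Subgroup K, H.Normal → H ≤ N → H = ⊥ ∨ H = N := by
    intro H hH hle
    by_contra hh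
    push Not at hh
    exact hNmin H ⟨hH, hh.1⟩ (lt_of_le_of_ne hle hh.2)
  have hmapsub : ∀ M : Subgroup N, M.Normal → (M.map N.subtype).IsSubnormal := by
    intro M hM
    refine Subgroup.IsSubnormal.trans (Subgroup.map_subtype_le M) ?_ hNn.isSubnormal
    rw [Subgroup.subgroupOf, Subgroup.comap_map_eq_self_of_injective N.subtype_injective]
    exact hM.isSubnormal
  -- the centralizer of a normal subgroup of `N` in `N` is trivial
  have hcentN : ∀ M : Subgroup N, M.Normal → M ≠ ⊥ → Subgroup.centralizer (M : Set N) = ⊥ := by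
    intro M hMn hMne
    by_contra hCne
    haveI := hMn
    have hMs := hmapsub M hMn
    have hC' : (Subgroup.centralizer (M : Set N)).Normal := inferInstance
    have hCs := hmapsub _ hC'
    have h1 := hsub _ hMs (by rwa [Ne, Subgroup.map_eq_bot_iff_of_injective _ N.subtype_injective])
    have h2 := hsub _ hCs (by rwa [Ne, Subgroup.map_eq_bot_iff_of_injective _ N.subtype_injective])
    have h3 := same_of_commute P h1 h2 (by
      rw [← Subgroup.map_commutator, Subgroup.commutator_comm, Subgroup.commutator_eq_bot_iff_le_centralizer.mpr le_rfl,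
        Subgroup.map_bot])
    refine h3 ?_
    rw [← Subgroup.map_inf _ _ _ N.subtype_injective, Subgroup.map_eq_bot_iff_of_injective _ N.subtype_injective]
    by_contra hne
    apply hne
    have h4 := hnoab ((M ⊓ Subgroup.centralizer (M : Set N)).map N.subtype)
      (hmapsub _ (Subgroup.normal_inf_normal M _)) (by
        rintro _ ⟨a, ha, rfl⟩ _ ⟨b, hb, rfl⟩
        exact congrArg Subtype.val (Subgroup.mem_centralizer_iff.mp hb.2 a ha.1))
    rwa [Subgroup.map_eq_bot_iff_of_injective _ N.subtype_injective] at h4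
  haveI : Nontrivial N := (Subgroup.nontrivial_iff_ne_bot N).mpr hNne
  have hsimp : IsSimpleGroup N := by
    refine ⟨fun H hH => ?_⟩
    by_contra hh
    push Not at hh
    obtain ⟨M, ⟨hMn, hMne⟩, hMmin⟩ := WellFounded.has_min (α := Subgroup N) wellFounded_lt
      {L | L.Normal ∧ L ≠ ⊥ ∧ L ≤ H} ⟨H, hH, hh.1, le_rfl⟩
    haveI := hMn
    have hnorm : (M.map N.subtype).Normal := by
      refine ⟨fun a ha g => ?_⟩
      obtain ⟨a, ha', rfl⟩ := ha
      let f : N ≃* N := MulAut.conjNormal g
      haveI : (M.map f.toMonoidHom).Normal := hMn.map _ f.surjective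
      by_cases hI : M ⊓ M.map f.toMonoidHom = ⊥
      · exfalso
        have hle : M.map f.toMonoidHom ≤ Subgroup.centralizer (M : Set N) := by
          intro w hw
          rw [Subgroup.mem_centralizer_iff]
          intro v hv
          exact (Subgroup.commute_of_normal_of_disjoint M _ hMn inferInstance (disjoint_iff.mpr hI) v w hv hw).eq
        rw [hcentN M hMn hMne.1, le_bot_iff] at hle
        replace hle := (Subgroup.map_eq_bot_iff_of_injective M (f := f.toMonoidHom) f.injective).mp hle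
        exact hMne.1 hle
      · have heq : M ⊓ M.map f.toMonoidHom = M := by
          by_contra hne
          exact hMmin _ ⟨Subgroup.normal_inf_normal M _, hI, inf_le_left.trans hMne.2⟩
            (lt_of_le_of_ne inf_le_left hne)
        have hMf : M = M.map f.toMonoidHom :=
          Subgroup.eq_of_le_of_card_ge (inf_eq_left.mp heq) (Subgroup.card_map_of_injective f.injective).le
        refine ⟨f a, ?_, ?_⟩
        · rw [SetLike.mem_coe, hMf]
          exact Subgroup.mem_map_of_mem _ ha'
        · simp [f, MulAut.conjNormal_apply]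
    rcases hmin _ hnorm (Subgroup.map_subtype_le M) with h | h
    · exact hMne.1 ((Subgroup.map_eq_bot_iff_of_injective _ N.subtype_injective).mp h)
    · have hMtop : M = ⊤ := Subgroup.map_injective N.subtype_injective (by rw [h, ← MonoidHom.range_eq_map, N.range_subtype])
      exact hh.2 (top_le_iff.mp (hMtop ▸ hMne.2))
  have hnc : ¬ IsMulCommutative N := fun h =>
    hNne (hnoab N hNn.isSubnormal fun a ha b hb =>
      congrArg Subtype.val (h.is_comm.comm (⟨a, ha⟩ : N) ⟨b, hb⟩))
  have hcentK : Subgroup.centralizer (N : Set K) = ⊥ := by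
    by_contra hCne
    haveI : (Subgroup.centralizer (N : Set K)).Normal := inferInstance
    have h3 := same_of_commute P (hsub N hNn.isSubnormal hNne)
      (hsub _ (inferInstance : (Subgroup.centralizer (N : Set K)).Normal).isSubnormal hCne)
      (by rw [Subgroup.commutator_comm]; exact Subgroup.commutator_eq_bot_iff_le_centralizer.mpr le_rfl)
    refine h3 (hnoab _ (Subgroup.normal_inf_normal N _).isSubnormal ?_)
    intro a ha b hb
    exact Subgroup.mem_centralizer_iff.mp hb.2 a ha.1
  have hperf : Group.IsPerfect N := by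
    haveI := hsimp
    rcases Subgroup.Normal.eq_bot_or_eq_top (inferInstance : (commutator N).Normal) with h | h
    · exact absurd ⟨⟨fun a b => commutatorElement_eq_one_iff_mul_comm.mp
        (Subgroup.mem_bot.mp (h ▸ Subgroup.commutator_mem_commutator (Subgroup.mem_top a) (Subgroup.mem_top b)))⟩⟩ hnc
    · exact ⟨h⟩
  have hcomp : IsComponent N := by
    haveI := hsimp
    refine ⟨hNn.isSubnormal, hperf, ?_⟩
    have hz : Subgroup.center N = ⊥ := by
      rcases Subgroup.Normal.eq_bot_or_eq_top (inferInstance : (Subgroup.center N).Normal) with h | h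
      · exact h
      · exact absurd ⟨⟨fun a b => Subgroup.mem_center_iff.mp (h.symm ▸ Subgroup.mem_top b : b ∈ Subgroup.center N) a⟩⟩ hnc
    exact MulEquiv.isSimpleGroup ((QuotientGroup.quotientMulEquivOfEq hz).trans QuotientGroup.quotientBot)
  have hFN : generalizedFittingSubgroup K = N := by
    refine le_antisymm ?_ (le_sup_of_le_left (CfsgLib.Components.le_layer hcomp))
    unfold generalizedFittingSubgroup
    rw [hF, sup_bot_eq]
    refine sSup_le fun L hL => ?_
    refine (CfsgLib.Components.le_or_commute hL hNn.isSubnormal).resolve_right fun h => ?_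
    exact CfsgLib.Components.quasisimple_ne_bot hL.2
      (le_bot_iff.mp ((Subgroup.commutator_eq_bot_iff_le_centralizer.mp h).trans hcentK.le))
  rw [hFN]
  refine ⟨hsimp, hnc, ?_⟩
  -- `P ≤ N`
  have hab : ∀ a ∈ (P : Subgroup K), ∀ b ∈ (P : Subgroup K), a * b = b * a := fun a ha b hb =>
    congrArg Subtype.val (IsMulCommutative.is_comm.comm (⟨a, ha⟩ : (P : Subgroup K)) ⟨b, hb⟩)
  set H : Subgroup K := N ⊔ (P : Subgroup K) with hH
  have hPH : (P : Subgroup K) ≤ H := le_sup_right
  let P' : Sylow p H := P.subtype hPH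
  have hP' : (P' : Subgroup H) = (P : Subgroup K).subgroupOf H := rfl
  have hab' : ∀ a ∈ (P' : Subgroup H), ∀ b ∈ (P' : Subgroup H), a * b = b * a := fun a ha b hb =>
    Subtype.ext (hab a ha b hb)
  haveI : IsMulCommutative (P' : Subgroup H) := ⟨⟨fun a b => Subtype.ext (hab' a a.2 b b.2)⟩⟩
  have hnot : ¬ Subgroup.normalizer ((P' : Subgroup H) : Set H) ≤ Subgroup.centralizer ((P' : Subgroup H) : Set H) := by
    intro hle
    let f : N →* (P' : Subgroup H) := (MonoidHom.transferSylow P' hle).comp (Subgroup.inclusion le_sup_left)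
    haveI := hsimp
    rcases Subgroup.Normal.eq_bot_or_eq_top (MonoidHom.normal_ker f) with hk | hk
    · refine hnc ⟨⟨fun a b => (MonoidHom.ker_eq_bot_iff f).mp hk ?_⟩⟩
      rw [map_mul, map_mul]
      exact IsMulCommutative.is_comm.comm _ _
    · have hle' : N.subgroupOf H ≤ (MonoidHom.transferSylow P' hle).ker := by
        rintro ⟨w, hw⟩ hwN
        have : (⟨w, hwN⟩ : N) ∈ f.ker := hk ▸ Subgroup.mem_top _
        exact this
      have h1 := (hsub N hNn.isSubnormal hNne).trans (dvd_of_eq
        (Nat.card_congr (Subgroup.subgroupOfEquivOfLe (show N ≤ H from le_sup_left)).toEquiv).symm)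
      exact MonoidHom.not_dvd_card_ker_transferSylow P' hle (h1.trans (Subgroup.card_dvd_of_le hle'))
  obtain ⟨n, hn, hcop, hncent⟩ := exists_prime_element hab' hnot
  rw [hP', centralizes_iff_sub hPH] at hncent
  rw [hP'] at hn
  have hnP : (n : K) ∈ Subgroup.normalizer ((P : Subgroup K) : Set K) := normalizer_sub hPH hn
  -- the element `n` lies in `N`
  have hnN : (n : K) ∈ N := by
    obtain ⟨k, hk⟩ := IsPGroup.iff_card.mp P.isPGroup'
    have h1 : (QuotientGroup.mk' N (n : K)) ^ (p ^ k) = 1 := by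
      obtain ⟨a, ha, b, hb, hab2⟩ := Subgroup.mem_sup_of_normal_left.mp n.2
      rw [← hab2, map_mul, show QuotientGroup.mk' N a = 1 from (QuotientGroup.eq_one_iff a).mpr ha, one_mul, ← map_pow]
      have : b ^ (p ^ k) = 1 := by
        rw [← hk]
        exact congrArg Subtype.val (pow_card_eq_one' (x := (⟨b, hb⟩ : (P : Subgroup K))))
      rw [this, map_one]
    have h2 : (QuotientGroup.mk' N (n : K)) = 1 := by
      refine orderOf_eq_one_iff.mp (Nat.eq_one_of_dvd_coprimes ?_ (orderOf_map_dvd _ _) (orderOf_dvd_of_pow_eq_one h1))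
      rw [Subgroup.orderOf_coe]
      exact hcop.pow_right k
    exact (QuotientGroup.eq_one_iff _).mp h2
  let f : ↥(P : Subgroup K) → ↥(P : Subgroup K) := fun (z : ↥(P : Subgroup K)) => ⟨(n : K) * (z : K) * (n : K)⁻¹ * (z : K)⁻¹,
    Subgroup.mul_mem _ ((Subgroup.mem_normalizer_iff.mp hnP _).mp z.2) (Subgroup.inv_mem _ z.2)⟩
  have hf : Function.Injective f := by
    intro z w hzw
    have h1 : (n : K) * (z : K) * (n : K)⁻¹ * (z : K)⁻¹ = (n : K) * (w : K) * (n : K)⁻¹ * (w : K)⁻¹ := congrArg Subtype.val hzw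
    by_contra hne
    have hu1 : (w : K)⁻¹ * (z : K) ≠ 1 := fun h => hne (Subtype.ext (inv_mul_eq_one.mp h).symm)
    apply hncent
    refine centralizes_of_fixed P.isPGroup' hnP (by rwa [Subgroup.orderOf_coe])
      (Subgroup.mul_mem _ (Subgroup.inv_mem _ w.2) z.2) hu1 ?_
    have e1 : (w : K)⁻¹ * (z : K) = (z : K) * (w : K)⁻¹ := hab _ (Subgroup.inv_mem _ w.2) _ z.2
    have e2 : (n : K) * ((w : K)⁻¹ * (z : K)) * (n : K)⁻¹ = (w : K)⁻¹ * (z : K) := by
      calc (n : K) * ((w : K)⁻¹ * (z : K)) * (n : K)⁻¹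
          = ((n : K) * (w : K) * (n : K)⁻¹)⁻¹ * ((n : K) * (z : K) * (n : K)⁻¹ * (z : K)⁻¹) * (z : K) := by group
        _ = (w : K)⁻¹ * (z : K) := by rw [h1]; group
    exact mul_inv_eq_iff_eq_mul.mp e2
  have hPN : (P : Subgroup K) ≤ N := by
    intro y hy
    obtain ⟨z, hz⟩ := (Finite.injective_iff_surjective.mp hf) ⟨y, hy⟩
    have hz' : (n : K) * (z : K) * (n : K)⁻¹ * (z : K)⁻¹ = y := congrArg Subtype.val hz
    rw [← hz', mul_assoc (n : K) _ _, mul_assoc (n : K) _ _]
    exact N.mul_mem hnN (hNn.conj_mem _ (N.inv_mem hnN) _)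
  exact fun h => P.not_dvd_index (h.trans (Subgroup.index_dvd_of_le hPN))

end CfsgLib.CyclicSylowCoreFree
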